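import Cfsg.Agent.H851.Rl.PDefs

/-!
# S3691, PSL-10: the block of a point stabiliser (helper55)
-/

set_option autoImplicit false
set_option linter.unusedVariables false

namespace Cfsg.Agent.H55.Rl

open Cfsg Cfsg.Geo Matrix Cfsg.Agent.H851.Rl
open scoped MatrixGroups

section

variable {m : ℕ} {F : Type} [Field F] {v : Fin (m + 1) → F}

/-- the endomorphism of `V` -/
def ac (x : GL (Fin (m + 1)) F) : (Fin (m + 1) → F) →ₗ[F] (Fin (m + 1) → F) :=
  Matrix.mulVecLin (x : Matrix (Fin (m + 1)) (Fin (m + 1)) F)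

theorem ac_apply (x : GL (Fin (m + 1)) F) (w : Fin (m + 1) → F) :
    ac x w = (x : Matrix (Fin (m + 1)) (Fin (m + 1)) F) *ᵥ w := rfl

theorem ac_mul (x y : GL (Fin (m + 1)) F) (w : Fin (m + 1) → F) : ac (x * y) w = ac x (ac y w) := by
  rw [ac_apply, ac_apply, ac_apply, mulVec_mulVec, ← Units.val_mul]

theorem ac_one (w : Fin (m + 1) → F) : ac (1 : GL (Fin (m + 1)) F) w = w := by
  rw [ac_apply, Units.val_one, one_mulVec]

theorem ac_inj {x y : GL (Fin (m + 1)) F} (h : ∀ w, ac x w = ac y w) : x = y := by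
  apply Units.ext
  apply Matrix.ext_of_mulVec_single
  intro i
  exact h _

theorem le_of_fix {x : GL (Fin (m + 1)) F} (h : ∃ c : F, (x : Matrix (Fin (m + 1)) (Fin (m + 1)) F) *ᵥ v = c • v) :
    (F ∙ v) ≤ (F ∙ v).comap (ac x) := by
  rw [Submodule.span_singleton_le_iff_mem, Submodule.mem_comap, Submodule.mem_span_singleton]
  obtain ⟨c, hc⟩ := h
  exact ⟨c, hc.symm⟩

/-- the determinant -/
theorem det_fix (hv : v ≠ 0) {x : GL (Fin (m + 1)) F} {c : F}
    (hc : (x : Matrix (Fin (m + 1)) (Fin (m + 1)) F) *ᵥ v = c • v) (hx : (F ∙ v) ≤ (F ∙ v).comap (ac x)) :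
    (x : Matrix (Fin (m + 1)) (Fin (m + 1)) F).det = c * ((F ∙ v).mapQ (F ∙ v) (ac x) hx).det := by
  have h1 := LinearMap.det_eq_det_mul_det (F ∙ v) (ac x) hx
  have h2 : (ac x).det = (x : Matrix (Fin (m + 1)) (Fin (m + 1)) F).det := by
    rw [ac, ← Matrix.toLin'_apply', LinearMap.det_toLin']
  have h3 : (ac x).restrict (p := F ∙ v) (q := F ∙ v) hx = c • LinearMap.id := by
    ext ⟨w, hw⟩ : 1
    obtain ⟨t, rfl⟩ := Submodule.mem_span_singleton.1 hw
    apply Subtype.ext
    change ac x (t • v) = c • (t • v)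
    rw [map_smul, ac_apply, hc, smul_comm]
  have h4 : ((ac x).restrict (p := F ∙ v) (q := F ∙ v) hx).det = c := by
    rw [h3, LinearMap.det_smul, LinearMap.det_id, mul_one, finrank_span_singleton hv, pow_one]
  rw [← h2, h1, h4]

/-- **PSL-10** -/
theorem block [Fintype F] {R : Subgroup (GL (Fin (m + 1)) F)} (hv : v ≠ 0)
    (hR : R ≤ specialLinear (Fin (m + 1)) F)
    (hfix : ∀ x ∈ R, ∃ c : F, (x : Matrix (Fin (m + 1)) (Fin (m + 1)) F) *ᵥ v = c • v) :
    ∃ φ : R →* GL (Fin m) F, Nat.card φ.ker ∣ Fintype.card F ^ m ∧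
      (specialLinear (Fin m) F ≤ φ.range → Pt R v) := by
  classical
  have hfr : Module.finrank F ((Fin (m + 1) → F) ⧸ (F ∙ v)) = m := by
    have h1 := Submodule.finrank_quotient_add_finrank (F ∙ v)
    rw [finrank_span_singleton hv, Module.finrank_fintype_fun_eq_card, Fintype.card_fin] at h1
    omega
  obtain ⟨b⟩ : Nonempty (Module.Basis (Fin m) F ((Fin (m + 1) → F) ⧸ (F ∙ v))) :=
    ⟨(Module.finBasis F _).reindex (finCongr hfr)⟩
  -- the action on the quotient
  let q : R →* Matrix (Fin m) (Fin m) F :=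
    { toFun := fun x => LinearMap.toMatrix b b ((F ∙ v).mapQ (F ∙ v) (ac x.1) (le_of_fix (hfix x.1 x.2)))
      map_one' := by
        have h1 : (F ∙ v).mapQ (F ∙ v) (ac (1 : R).1) (le_of_fix (hfix (1 : R).1 (1 : R).2)) = LinearMap.id := by
          ext w
          change Submodule.Quotient.mk (ac (1 : R).1 _) = Submodule.Quotient.mk _
          rw [Subgroup.coe_one, ac_one]
        rw [h1, LinearMap.toMatrix_id]
      map_mul' := fun x y => by
        rw [← LinearMap.toMatrix_comp]
        congr 1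
        ext w
        change Submodule.Quotient.mk (ac (x * y : R).1 _) = Submodule.Quotient.mk (ac x.1 (ac y.1 _))
        rw [Subgroup.coe_mul, ac_mul] }
  have hq : ∀ x : R, q x = LinearMap.toMatrix b b ((F ∙ v).mapQ (F ∙ v) (ac x.1) (le_of_fix (hfix x.1 x.2))) :=
    fun x => rfl
  refine ⟨q.toHomUnits, ?_, ?_⟩
  · -- the kernel
    have hker : ∀ x : R, x ∈ q.toHomUnits.ker → ∀ w, ac x.1 w - w ∈ F ∙ v := by
      intro x hx w
      have h1 : q x = 1 := congrArg Units.val (MonoidHom.mem_ker.1 hx)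
      rw [hq, ← LinearMap.toMatrix_id b, (LinearMap.toMatrix b b).injective.eq_iff] at h1
      have h2 := LinearMap.congr_fun h1 (Submodule.Quotient.mk w)
      exact (Submodule.Quotient.eq _).1 h2
    have hkv : ∀ x : R, x ∈ q.toHomUnits.ker → ac x.1 v = v := by
      intro x hx
      obtain ⟨c, hc⟩ := hfix x.1 x.2
      have h1 := det_fix hv hc (le_of_fix (hfix x.1 x.2))
      have h2 : q x = 1 := congrArg Units.val (MonoidHom.mem_ker.1 hx)
      have h3 : ((F ∙ v).mapQ (F ∙ v) (ac x.1) (le_of_fix (hfix x.1 x.2))).det = 1 := by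
        rw [← LinearMap.det_toMatrix b, ← hq, h2, det_one]
      have h4 : (x.1 : Matrix (Fin (m + 1)) (Fin (m + 1)) F).det = 1 := congrArg Units.val (MonoidHom.mem_ker.1 (hR x.2))
      rw [h3, h4, mul_one] at h1
      rw [ac_apply, hc, ← h1, one_smul]
    obtain ⟨i, hi⟩ : ∃ i, v i ≠ 0 := by
      by_contra hcon
      push Not at hcon
      exact hv (funext hcon)
    -- the functional
    have hl : ∀ w ∈ F ∙ v, w = (w i / v i) • v := by
      intro w hw
      obtain ⟨t, rfl⟩ := Submodule.mem_span_singleton.1 hw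
      rw [Pi.smul_apply, smul_eq_mul, mul_div_assoc, div_self hi, mul_one]
    choose w hw using fun j => Submodule.Quotient.mk_surjective (F ∙ v) (b j)
    let f : q.toHomUnits.ker →* Multiplicative (Fin m → F) :=
      { toFun := fun x => Multiplicative.ofAdd fun j => (ac x.1.1 (w j) - w j) i / v i
        map_one' := by
          rw [← ofAdd_zero]
          congr 1
          funext j
          change (ac (1 : GL (Fin (m + 1)) F) (w j) - w j) i / v i = 0
          rw [ac_one, sub_self, Pi.zero_apply, zero_div]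
        map_mul' := fun x y => by
          rw [← ofAdd_add]
          congr 1
          funext j
          change (ac (x.1.1 * y.1.1) (w j) - w j) i / v i =
            (ac x.1.1 (w j) - w j) i / v i + (ac y.1.1 (w j) - w j) i / v i
          have h1 := hl _ (hker y.1 y.2 (w j))
          have h2 : ac y.1.1 (w j) = w j + ((ac y.1.1 (w j) - w j) i / v i) • v := by
            rw [← h1]; abel
          have h3 : ac (x.1.1 * y.1.1) (w j) - w j = (ac x.1.1 (w j) - w j) +
              ((ac y.1.1 (w j) - w j) i / v i) • v := by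
            rw [ac_mul]
            conv_lhs => rw [h2]
            rw [map_add, map_smul, hkv x.1 x.2]
            abel
          rw [h3, Pi.add_apply, Pi.smul_apply, smul_eq_mul, add_div, mul_div_assoc _ (v i) (v i), div_self hi, mul_one] }
    have hf : Function.Injective f := by
      rw [injective_iff_map_eq_one]
      intro x hx
      have h1 : ∀ j, ac x.1.1 (w j) = w j := by
        intro j
        have h2 : (ac x.1.1 (w j) - w j) i / v i = 0 := congrFun (congrArg Multiplicative.toAdd hx) j
        have h3 := hl _ (hker x.1 x.2 (w j))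
        rw [h2, zero_smul, sub_eq_zero] at h3
        exact h3
      apply Subtype.ext
      apply Subtype.ext
      apply ac_inj
      intro u
      change ac x.1.1 u = ac 1 u
      rw [ac_one]
      have h4 : ∃ t : F, u = ∑ j, b.repr (Submodule.Quotient.mk u) j • w j + t • v := by
        have h5 : u - ∑ j, b.repr (Submodule.Quotient.mk u) j • w j ∈ F ∙ v := by
          rw [← Submodule.Quotient.eq, ← Submodule.mkQ_apply, ← Submodule.mkQ_apply, map_sum]
          conv_lhs => rw [Submodule.mkQ_apply, ← b.sum_repr (Submodule.Quotient.mk u)]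
          apply Finset.sum_congr rfl
          intro j _
          rw [map_smul]
          congr 1
          exact (hw j).symm
        obtain ⟨t, ht⟩ := Submodule.mem_span_singleton.1 h5
        exact ⟨t, by rw [ht]; abel⟩
      obtain ⟨t, ht⟩ := h4
      rw [ht, map_add, map_sum, map_smul, hkv x.1 x.2]
      congr 1
      apply Finset.sum_congr rfl
      intro j _
      rw [map_smul, h1]
    have h5 := Subgroup.card_dvd_of_injective f hf
    rwa [Nat.card_eq_fintype_card (α := Multiplicative (Fin m → F)), Fintype.card_multiplicative, Fintype.card_fun,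
      Fintype.card_fin] at h5
  · intro hφ
    refine ⟨hv, hR, hfix, ?_⟩
    intro x hx
    obtain ⟨hxd, hxv⟩ := hx
    have hx1 : (F ∙ v) ≤ (F ∙ v).comap (ac x) := le_of_fix ⟨1, by rw [hxv, one_smul]⟩
    have h1 := det_fix hv (c := 1) (by rw [hxv, one_smul]) hx1
    have h2 : (x : Matrix (Fin (m + 1)) (Fin (m + 1)) F).det = 1 := congrArg Units.val (MonoidHom.mem_ker.1 hxd)
    rw [h2, one_mul] at h1
    have h3 : (LinearMap.toMatrix b b ((F ∙ v).mapQ (F ∙ v) (ac x) hx1)).det = 1 := by
      rw [LinearMap.det_toMatrix, ← h1]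
    obtain ⟨y, hy⟩ := hφ (show (Matrix.SpecialLinearGroup.toGL
      (⟨_, h3⟩ : Matrix.SpecialLinearGroup (Fin m) F) : GL (Fin m) F) ∈ specialLinear (Fin m) F from by
        rw [specialLinear, MonoidHom.mem_ker]
        apply Units.ext
        exact h3)
    have h4 : q y = LinearMap.toMatrix b b ((F ∙ v).mapQ (F ∙ v) (ac x) hx1) := congrArg Units.val hy
    rw [hq, (LinearMap.toMatrix b b).injective.eq_iff] at h4
    refine ⟨y.1, y.2, fun w => ?_⟩
    have h5 := LinearMap.congr_fun h4 (Submodule.Quotient.mk w)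
    have h6 : ac y.1 w - ac x w ∈ F ∙ v := (Submodule.Quotient.eq _).1 h5
    obtain ⟨c, hc⟩ := Submodule.mem_span_singleton.1 h6
    refine ⟨c, ?_⟩
    rw [hc]
    change ac y.1 w = ac x w + (ac y.1 w - ac x w)
    abel

end

end Cfsg.Agent.H55.Rl
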